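import Cfsg.Agent.H361.FixPoly

/-!
Numbers: the number of chambers of a building of type `I₂(m)` with given parameters, chamber transitivity of
the normal subgroups, the order of a strongly transitive group.
-/

set_option autoImplicit false
set_option linter.unusedSectionVars false

namespace Cfsg.Agent.H361.ChamberCount

open Cfsg.Agent.Tits.Core Cfsg.Agent.Tits.Core.Bldg Cfsg.Agent.SplitTwo Cfsg.Agent.SplitTwo.Exc
open Cfsg.Agent.Tits.Exchange Cfsg.Agent.SplitTwo.DihPath

variable {I : Type*} {M : CoxeterMatrix I} {W : Type*} [Group W] {cs : CoxeterSystem M W}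
variable {C : Type*} {Δ : Bldg cs C}

local notation "ℓ" => cs.length

theorem w_neg {a b : I} (k : ℕ) : w cs a b (-(k : ℤ)) = w cs b a k := by
  induction k with
  | zero =>
    rw [Nat.cast_zero, neg_zero, w_zero, w_zero]
  | succ k ih =>
    have e : -((k + 1 : ℕ) : ℤ) = -(k : ℤ) - 1 := by push_cast; ring
    have e2 : ((k + 1 : ℕ) : ℤ) = (k : ℤ) + 1 := by push_cast; ring
    rw [e, e2, w_pred, w_succ, ih]
    congr 2
    unfold ty
    by_cases h : Even (k : ℤ)
    · rw [if_pos h, if_neg]
      rw [Int.not_even_iff_odd]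
      exact h.neg.sub_odd odd_one
    · rw [if_neg h, if_pos]
      rw [Int.not_even_iff_odd] at h
      exact h.neg.sub_odd odd_one

theorem w_m_add [Finite W] {a b : I} (hI : ∀ i, i = a ∨ i = b) {m : ℕ} (hm : M a b = m) {k : ℕ}
    (hk : k ≤ m) : w cs a b (m + k : ℕ) = w cs b a (m - k : ℕ) := by
  rw [← w_neg (a := a) (b := b) (m - k), w_eq_iff cs hI hm]
  refine ⟨1, ?_⟩
  push_cast [Nat.cast_sub hk]
  ring

/-- The number of chambers. -/
theorem card_chambers [Finite W] [Finite C] {a b : I} (hI : ∀ i, i = a ∨ i = b) {m : ℕ} (hm : M a b = m)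
    {q : I → ℕ} (hq : ∀ i, Δ.Param i (q i)) (hq0 : ∀ i, 0 < q i) (c : C) :
    Nat.card C = ∑ j ∈ Finset.range m, ∏ k ∈ Finset.range j, q (ty a b k) +
      ∑ j ∈ Finset.range m, ∏ k ∈ Finset.range (m - j), q (ty b a k) := by
  classical
  have := Fintype.ofFinite W
  have h1 : Nat.card C = ∑ v : W, Nat.card {d // Δ.δ c d = v} := by
    rw [← Nat.card_sigma]
    exact Nat.card_congr (Equiv.sigmaFiberEquiv (fun d => Δ.δ c d)).symm
  have hpos := m_pos cs hI hm
  have hbij : Function.Bijective (fun j : Fin (m + m) => w cs a b (j : ℕ)) := by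
    constructor
    · intro j k hjk
      have h2 := (w_eq_iff cs hI hm).1 hjk
      obtain ⟨r, hr⟩ := h2
      have hj := j.2
      have hk := k.2
      apply Fin.ext
      push_cast at hr
      have h3 : r = 0 := by
        have h4 : (2 * (m : ℤ)) * r < 2 * m := by omega
        have h5 : -(2 * (m : ℤ)) < (2 * (m : ℤ)) * r := by omega
        have h6 : (0 : ℤ) < 2 * m := by omega
        have h7 : r < 1 := by nlinarith
        have h8 : -1 < r := by nlinarith
        omega
      rw [h3] at hr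
      omega
    · intro v
      obtain ⟨j, hj, -⟩ := exists_w cs hI v
      have h3 := Int.emod_nonneg j (b := ((2 * m : ℕ) : ℤ)) (by push_cast; omega)
      have h4 := Int.emod_lt_of_pos j (b := ((2 * m : ℕ) : ℤ)) (by push_cast; omega)
      refine ⟨⟨(j % ((2 * m : ℕ) : ℤ)).toNat, by push_cast at h4 ⊢; omega⟩, ?_⟩
      simp only
      rw [Int.toNat_of_nonneg h3, ← hj, w_eq_iff cs hI hm]
      have h5 := Int.emod_def j ((2 * m : ℕ) : ℤ)
      exact ⟨-(j / ((2 * m : ℕ) : ℤ)), by rw [h5]; ring⟩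
  have h2 : ∑ v : W, Nat.card {d // Δ.δ c d = v} =
      ∑ j : Fin (m + m), Nat.card {d // Δ.δ c d = w cs a b (j : ℕ)} :=
    (Function.Bijective.sum_comp hbij (fun v => Nat.card {d // Δ.δ c d = v})).symm
  rw [h1, h2, Fin.sum_univ_eq_sum_range (fun j => Nat.card {d // Δ.δ c d = w cs a b (j : ℕ)}) (m + m),
    Finset.sum_range_add]
  congr 1
  · refine Finset.sum_congr rfl fun j hj => ?_
    rw [Finset.mem_range] at hj
    exact N168.card_w hI hm hq hq0 c j hj.le
  · refine Finset.sum_congr rfl fun j hj => ?_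
    rw [Finset.mem_range] at hj
    rw [w_m_add hI hm hj.le]
    exact N168.card_w (fun i => (hI i).symm) ((M.symmetric b a).trans hm) hq hq0 c (m - j) (Nat.sub_le _ _)

variable {G : Type*} [Group G] [MulAction G C]

/-- A non-trivial normal subgroup is transitive on the chambers. -/
theorem normal_trans (F : Fam Δ G) (hf : ∀ g : G, (∀ x : C, g • x = x) → g = 1) {i j : I}
    (hI : ∀ k, k = i ∨ k = j) (hm : 3 ≤ M i j) [Finite W] (E : Subgroup G) [hE : E.Normal] (hE1 : E ≠ ⊥)
    (c d : C) : ∃ e ∈ E, e • c = d := by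
  have := finI hI
  have hij : i ≠ j := by
    rintro rfl
    rw [M.diagonal] at hm
    omega
  -- the set of distances
  have hinv : ∀ {x : C}, (∃ e ∈ E, e • c = x) → ∀ y, Δ.δ c x = Δ.δ c y → ∃ e ∈ E, e • c = y := by
    rintro x ⟨e, he, rfl⟩ y hxy
    obtain ⟨g, hg1, hg2⟩ := F.trans c (e • c) c y hxy
    refine ⟨g * e * g⁻¹, hE.conj_mem e he g, ?_⟩
    have h1 : g⁻¹ • c = c := by rw [inv_smul_eq_iff, hg1]
    rw [mul_smul, mul_smul, h1, hg2]
  have hblock : ∀ {x y : C} {s : I}, (∃ e ∈ E, e • c = x) → (∃ e ∈ E, e • c = y) →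
      Δ.δ x y = cs.simple s → ∀ z, Δ.δ c z = cs.simple s → ∃ e ∈ E, e • c = z := by
    rintro x y s ⟨e, he, rfl⟩ ⟨e', he', rfl⟩ h z hz
    refine hinv (x := (e⁻¹ * e') • c) ⟨_, mul_mem (inv_mem he) he', rfl⟩ z ?_
    rw [hz, ← h, ← F.iso e c, smul_smul, mul_inv_cancel_left]
  -- descent
  have hdesc : ∀ {x : C} {s : I}, (∃ e ∈ E, e • c = x) → cs.IsRightDescent (Δ.δ c x) s →
      ∀ z, Δ.δ c z = cs.simple s → ∃ e ∈ E, e • c = z := by
    intro x s hx hs z hz
    have hs' := cs.isRightDescent_iff.1 hs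
    obtain ⟨y, hy1, hy2⟩ := Δ.exists_step c x s
    have hyx := Δ.δ_symm_simple hy1
    obtain ⟨x', hx'1, hx'2, hx'3⟩ := Thick.exists_third F.thick (i := s) (x := y) y x
    have hx4 : Δ.δ y x' = cs.simple s := hx'1.resolve_left hx'2
    have hxx' : Δ.δ x x' = cs.simple s :=
      Δ.δ_eq_of_mem_Pan (x := y) (Or.inr hyx) (Or.inr hx4) (Ne.symm hx'3)
    have hlt : ℓ (Δ.δ c y) < ℓ (Δ.δ c y * cs.simple s) := by
      rw [hy2, cs.simple_mul_simple_cancel_right]
      omega
    have h1 : Δ.δ c x' = Δ.δ c x := by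
      rw [Δ.step_lt c y x' s hx4 hlt, hy2, cs.simple_mul_simple_cancel_right]
    exact hblock hx (hinv hx x' h1.symm) hxx' z hz
  -- the types of the orbit
  by_cases hall : ∀ s : I, ∀ z, Δ.δ c z = cs.simple s → ∃ e ∈ E, e • c = z
  · generalize hn : ℓ (Δ.δ c d) = n
    induction n generalizing d with
    | zero =>
      have h1 : c = d := Δ.eq_of_δ_eq_one (cs.length_eq_zero_iff.1 hn)
      exact ⟨1, one_mem _, by rw [one_smul, h1]⟩
    | succ n ih =>
      have hne : Δ.δ c d ≠ 1 := by
        intro h1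
        rw [h1, cs.length_one] at hn
        omega
      obtain ⟨s, hs⟩ := cs.exists_rightDescent_of_ne_one hne
      have hs' := cs.isRightDescent_iff.1 hs
      obtain ⟨y, hy1, hy2⟩ := Δ.exists_step c d s
      obtain ⟨e, he, hey⟩ := ih y (by rw [hy2]; omega)
      have h2 : Δ.δ c (e⁻¹ • d) = cs.simple s := by
        rw [← F.iso e, smul_inv_smul, hey]
        exact Δ.δ_symm_simple hy1
      obtain ⟨e', he', h3⟩ := hall s _ h2
      refine ⟨e * e', mul_mem he he', ?_⟩
      rw [mul_smul, h3, smul_inv_smul]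
  · exfalso
    push Not at hall
    obtain ⟨s, z, hz, hnz⟩ := hall
    -- `t` the other type
    obtain ⟨t, hts, hst3⟩ : ∃ t, (∀ k, k = s ∨ k = t) ∧ 3 ≤ M s t := by
      rcases hI s with rfl | rfl
      · exact ⟨j, hI, hm⟩
      · exact ⟨i, fun k => (hI k).symm, by rw [M.symmetric]; exact hm⟩
    have hst : s ≠ t := by
      rintro rfl
      rw [M.diagonal] at hst3
      omega
    have hns : ∀ {x : C}, (∃ e ∈ E, e • c = x) → ¬ cs.IsRightDescent (Δ.δ c x) s := by
      intro x hx hs
      obtain ⟨e, he, hez⟩ := hdesc hx hs z hz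
      exact hnz e he hez
    -- the elements of `E` map `c` in its `t`-panel
    have hpan : ∀ e ∈ E, e • c = c ∨ Δ.δ c (e • c) = cs.simple t := by
      intro e he
      by_cases h1 : Δ.δ c (e • c) = 1
      · exact Or.inl (Δ.eq_of_δ_eq_one h1).symm
      right
      obtain ⟨k, hk⟩ := cs.exists_rightDescent_of_ne_one h1
      have hkt : k = t := by
        rcases hts k with rfl | rfl
        · exact absurd hk (hns ⟨e, he, rfl⟩)
        · rfl
      subst hkt
      have hk' := cs.isRightDescent_iff.1 hk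
      obtain ⟨y, hy1, hy2⟩ := Δ.exists_step c (e • c) k
      have hyE : ∃ e' ∈ E, e' • c = y := by
        have h3 : Δ.δ c (e⁻¹ • y) = cs.simple k := by
          rw [← F.iso e, smul_inv_smul]
          exact hy1
        obtain ⟨e', he', h4⟩ := hdesc ⟨e, he, rfl⟩ hk _ h3
        exact ⟨e * e', mul_mem he he', by rw [mul_smul, h4, smul_inv_smul]⟩
      by_cases h2 : Δ.δ c y = 1
      · rw [h2] at hy2
        rw [eq_comm, mul_eq_one_iff_eq_inv, cs.inv_simple] at hy2
        exact hy2
      exfalso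
      obtain ⟨r, hr⟩ := cs.exists_rightDescent_of_ne_one h2
      rcases hts r with rfl | rfl
      · exact hns hyE hr
      · have hr' := cs.isRightDescent_iff.1 hr
        rw [hy2, cs.simple_mul_simple_cancel_right] at hr'
        omega
    have hpan' : ∀ e ∈ E, ∀ x : C, e • x = x ∨ Δ.δ x (e • x) = cs.simple t := by
      intro e he x
      obtain ⟨g, hg⟩ := F.tr c x
      have h1 := hpan (g⁻¹ * e * g) (by
        have := hE.conj_mem e he g⁻¹
        rwa [inv_inv] at this)
      rw [mul_smul, mul_smul, hg] at h1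
      rcases h1 with h1 | h1
      · left
        rw [inv_smul_eq_iff, hg] at h1
        exact h1
      · right
        rw [← F.iso g, smul_inv_smul, hg] at h1
        exact h1
    apply hE1
    rw [eq_bot_iff]
    intro e he
    rw [Subgroup.mem_bot]
    apply hf
    intro x
    by_contra hne
    have h1 := (hpan' e he x).resolve_left hne
    obtain ⟨y, hy⟩ := Δ.exists_δ x (cs.simple s)
    have h2 : Δ.δ (e • x) (e • y) = cs.simple s := by rw [F.iso, hy]
    have hl2 := Cfsg.Agent.Tits.Generic.length_two (cs := cs) hst.symm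
    have hl3 := Cfsg.Agent.Tits.Generic.length_three (cs := cs) hst.symm (by
      rw [M.symmetric]
      omega)
    have h3 : Δ.δ (e • x) y = cs.simple t * cs.simple s :=
      Δ.δ_mul_of (Δ.δ_symm_simple h1) hy (by rw [hl2, cs.length_simple, cs.length_simple])
    rcases hpan' e he y with h4 | h4
    · rw [h4, h3] at h2
      have := congrArg cs.length h2
      rw [hl2, cs.length_simple] at this
      omega
    · have h5 := Δ.δ_mul_of h3 h4 (by rw [hl2, cs.length_simple, hl3])
      rw [h5] at h2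
      have := congrArg cs.length h2
      rw [hl3, cs.length_simple] at this
      omega

/-- The number of chambers divides the order of every non-trivial normal subgroup. -/
theorem dvd_normal (F : Fam Δ G) (hf : ∀ g : G, (∀ x : C, g • x = x) → g = 1) {i j : I}
    (hI : ∀ k, k = i ∨ k = j) (hm : 3 ≤ M i j) [Finite W] (E : Subgroup G) [hE : E.Normal] (hE1 : E ≠ ⊥)
    (c : C) : Nat.card C ∣ Nat.card E := by
  have h1 := MulAction.index_stabilizer E c
  have h2 : MulAction.orbit E c = Set.univ := by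
    ext d
    rw [MulAction.mem_orbit_iff]
    refine ⟨fun _ => trivial, fun _ => ?_⟩
    obtain ⟨e, he, hed⟩ := normal_trans F hf hI hm E hE1 c d
    exact ⟨⟨e, he⟩, hed⟩
  rw [h2, Set.ncard_univ] at h1
  rw [← h1]
  exact Subgroup.index_dvd_card _

/-- The order of a strongly transitive group. -/
theorem card_group [Finite C] (F : Fam Δ G) [Finite W] {i j : I} (hI : ∀ k, k = i ∨ k = j) {m : ℕ}
    (hm : M i j = m) {q : I → ℕ} (hq : ∀ i, Δ.Param i (q i)) (hq0 : ∀ i, 0 < q i) {c d : C}
    (h : Δ.Opp c d) : Nat.card G = Nat.card C * ((∏ k ∈ Finset.range m, q (ty i j k)) *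
      Nat.card (MulAction.stabilizer G c ⊓ MulAction.stabilizer G d : Subgroup G)) := by
  have h1 := MulAction.index_stabilizer G c
  have h2 : MulAction.orbit G c = Set.univ := by
    ext x
    rw [MulAction.mem_orbit_iff]
    exact ⟨fun _ => trivial, fun _ => F.tr c x⟩
  rw [h2, Set.ncard_univ] at h1
  rw [← h1, ← Subgroup.index_mul_card (MulAction.stabilizer G c)]
  congr 1
  have h3 := MulAction.index_stabilizer (MulAction.stabilizer G c) d
  have h4 : MulAction.orbit (MulAction.stabilizer G c) d = {x | Δ.δ c x = w0 cs} := by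
    ext x
    rw [MulAction.mem_orbit_iff]
    constructor
    · rintro ⟨g, rfl⟩
      have h5 := F.iso (g : G) c d
      rw [MulAction.mem_stabilizer_iff.1 g.2, h] at h5
      exact h5
    · intro hx
      obtain ⟨u, hu, hux⟩ := F.sphere c d x (Eq.trans h (Eq.symm hx))
      exact ⟨⟨u, F.fix c u hu⟩, hux⟩
  rw [h4, ← Nat.card_coe_set_eq] at h3
  have h5 : Nat.card ({x | Δ.δ c x = w0 cs} : Set C) = ∏ k ∈ Finset.range m, q (ty i j k) :=
    N168.card_opp hI hm hq hq0 c
  rw [h5] at h3
  rw [← h3, ← Subgroup.index_mul_card (MulAction.stabilizer (MulAction.stabilizer G c) d)]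
  congr 1
  refine Nat.card_congr ⟨fun g => ⟨(g : MulAction.stabilizer G c), g.1.2, g.2⟩,
    fun g => ⟨⟨g, g.2.1⟩, g.2.2⟩, fun g => rfl, fun g => rfl⟩

end Cfsg.Agent.H361.ChamberCount
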