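import Cfsg.Agent.H361.OrdCases
import Cfsg.Agent.Omega.TwoF.RowM12

/-!
The case of `M12`: a finite group with a self-centralising normal subgroup `M12` has order dividing `2 |M12|`.
-/

set_option autoImplicit false

namespace Cfsg.Agent.H361.OrdCases

open Cfsg Cfsg.Agent.OrdDiv

universe u

theorem card_of_m12 (T : OrderTable.{u}) {G : Type u} [Group G] [Finite G] {E : Subgroup G} (hE : E.Normal)
    (hc : Subgroup.centralizer (E : Set G) = ⊥) (h : Spor.IsoM12 E) : Nat.card G ∣ 190080 := by
  have hcardE : Nat.card E = 95040 := T.spor E (.m12, 95040) (by decide) h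
  obtain ⟨e⟩ := h
  have hc12 : Nat.card Spor.M12 = 95040 := by rw [← hcardE]; exact (Nat.card_congr e.toEquiv).symm
  have h1 := Subgroup.index_mul_card (MulAut.conj : Spor.M12 →* MulAut Spor.M12).range
  have h2 : Nat.card (MulAut Spor.M12) ∣ 190080 := by
    rw [← h1]
    have h3 : Nat.card (MulAut.conj : Spor.M12 →* MulAut Spor.M12).range ∣ 95040 := by
      rw [← hc12]
      exact Subgroup.card_range_dvd _
    have h4 := Nat.mul_dvd_mul Omega.TwoF.RowM12.index_dvd h3
    exact h4.trans (by norm_num)
  have h3 : Nat.card (MulAut E) = Nat.card (MulAut Spor.M12) := Nat.card_congr (MulAut.congr e).toEquiv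
  have h4 : Function.Injective (MulAut.conjNormal : G →* MulAut E) := by
    rw [injective_iff_map_eq_one]
    intro g hg
    have h5 : g ∈ Subgroup.centralizer (E : Set G) := by
      rw [Subgroup.mem_centralizer_iff]
      intro x hx
      have h6 : ((MulAut.conjNormal g ⟨x, hx⟩ : E) : G) = x := by rw [hg]; rfl
      rw [MulAut.conjNormal_apply] at h6
      rw [mul_inv_eq_iff_eq_mul] at h6
      exact h6.symm
    rw [hc, Subgroup.mem_bot] at h5
    exact h5
  have : Finite (MulAut E) := Finite.of_injective (fun φ : MulAut E => (φ : E → E)) fun φ ψ h =>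
    MulEquiv.ext (congrFun h)
  have h5 := Subgroup.card_dvd_of_injective _ h4
  rw [h3] at h5
  exact h5.trans h2

/-- The case (4; 8, 4). -/
theorem false_44 (T : OrderTable.{u}) (hS : ∀ (G : Type u) [Group G] [Finite G] [IsSimpleGroup G], IsKnownSimple' G)
    {G : Type u} [Group G] [Finite G] [Nontrivial G] (hG : Nat.card G ∣ 2^12*3^4*5*11)
    (h2 : 2 ^ 10 ∣ Nat.card G)
    (hc : ∀ E : Subgroup G, E.Normal → E ≠ ⊥ → 1485 ∣ Nat.card E) : False := by
  obtain ⟨E, hE, hEs, hna, hcE, hcen⟩ := exists_simple (c := 1485) (r := 11) (by norm_num) (by norm_num)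
    (by norm_num) (fun h => by have := h.trans hG; norm_num at this) hc
  have h12 := m12 T hS hna ((Subgroup.card_subgroup_dvd_card E).trans hG) hcE
  have h3 := h2.trans (card_of_m12 T hE hcen h12)
  norm_num at h3

end Cfsg.Agent.H361.OrdCases
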