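import Cfsg.Agent.SplitTwo.RankOneCrit
import Cfsg.Agent.HKS.AllOf
import Cfsg.Agent.HKS.GoalRee

/-!
The rank one fact without hypotheses.
-/

set_option autoImplicit false

namespace Cfsg.Agent.H361.RankOneFact

theorem rankOneR.{v} : SplitTwo.Reducible.RankOneR.{v} :=
  SplitTwo.RankOneCrit.rankOneR_of_HKS (HKS.hksEven_of_ree HKS.goalRee)

end Cfsg.Agent.H361.RankOneFact
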