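import Cfsg.Agent.H361.ChamberCount
import Cfsg.Agent.H361.OrdM12
import Cfsg.Agent.SplitTwo.ExcHyp168

/-!
Rank two: `fit G c` (the Fitting subgroup of a chamber stabiliser) meets the stabiliser of an opposite chamber
trivially, for every finite group `G` acting faithfully on a thick building of type `I₂(m)`, `m = 3, 4, 6, 8`, with
a splitting.
-/

set_option autoImplicit false
set_option linter.unusedSectionVars false

namespace Cfsg.Agent.H361.RankTwo

open Cfsg Cfsg.Agent.Tits.Core Cfsg.Agent.Tits.OppRes Cfsg.Agent.Tits.Rigid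
open Cfsg.Agent.SplitTwo Cfsg.Agent.SplitTwo.Reducible Cfsg.Agent.SplitTwo.Glue MulAction
open Cfsg.Agent.SplitTwo.Eps168 Cfsg.Agent.SplitTwo.PGroup168 Cfsg.Agent.SplitTwo.N168
open Cfsg.Agent.SplitTwo.DihPath Cfsg.Agent.OrdDiv
open Cfsg.Agent.H361.FixPoly Cfsg.Agent.H361.ChamberCount

universe u v

theorem ty_nat {I : Type*} (a b : I) (k : ℕ) : ty a b (k : ℤ) = if k % 2 = 0 then a else b := by
  unfold ty
  have : Even (k : ℤ) ↔ k % 2 = 0 := by
    rw [Int.even_coe_nat, Nat.even_iff]
  simp only [this]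

section

variable {I : Type*} {M : CoxeterMatrix I} {W : Type*} [Group W] {cs : CoxeterSystem M W}
variable {C : Type u} {Δ : Bldg cs C} [F : Cox cs]
variable {G : Type v} [Group G] [Finite G] [MulAction G C] [Finite C] [Finite W]

theorem ne_of_simple {s : I} {x y : C} (h : Δ.δ x y = cs.simple s) : y ≠ x := by
  rintro rfl
  rw [delta_self] at h
  have := congrArg cs.length h
  rw [cs.length_one, cs.length_simple] at this
  omega

/-- The chamber of the panel of type `k` of `c` which is not opposite `d`. -/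
theorem exists_e (iso : ∀ (g : G) x y, Δ.δ (g • x) (g • y) = Δ.δ x y) {c d : C}
    (h : Δ.Opp c d) (k : I) : ∃ e, Δ.δ c e = cs.simple k ∧ ∀ g : G, g • c = c → g • d = d → g • e = e := by
  have h1 : Δ.δ c d = cs.simple k * (cs.simple k * w0 cs) := by
    rw [cs.simple_mul_simple_cancel_left]
    exact h
  have h2 := Cfsg.Agent.Tits.Exchange.length_mul_w0 cs (cs.simple k)
  rw [cs.length_simple] at h2
  have h3 : cs.length (cs.simple k * (cs.simple k * w0 cs)) =
      cs.length (cs.simple k) + cs.length (cs.simple k * w0 cs) := by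
    rw [cs.simple_mul_simple_cancel_left, cs.length_simple]
    omega
  obtain ⟨e, he1, he2⟩ := Δ.exists_between h1 h3
  refine ⟨e, he1, fun g hc hd => ?_⟩
  refine Δ.between_unique h3 ?_ ?_ he1 he2
  · conv_lhs => rw [← hc]
    rw [iso, he1]
  · conv_lhs => rw [← hd]
    rw [iso, he2]

/-- Rigidity. -/
theorem eq_one (H : ∀ c : C, Split Δ c (fit G c)) (hf : ∀ g : G, (∀ x : C, g • x = x) → g = 1)
    {c d : C} (h : Δ.Opp c d) {u : G} (hd : u • d = d) (hp : ∀ k, ∀ x ∈ Δ.Pan k c, u • x = x) :
    u = 1 := by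
  apply hf
  intro x
  refine Cfsg.Agent.Tits.Rigid.rigid (Δ := Δ) (Δ' := Δ) (H c).thick (J := Set.univ) (c := c) (d := d)
    (φ := fun y => u • y) (ψ := fun y => y) (fun a _ b _ => (H c).iso u a b) (fun a _ b _ => rfl)
    ?_ h hd x ?_
  · intro k _ y hy
    exact hp k y hy
  · rw [Δ.Res_univ]
    trivial

/-- The homomorphism on a bad panel. -/
theorem hom_bad (hR : RankOneR.{u}) (H : ∀ c : C, Split Δ c (fit G c)) (h2 : ∀ c : C, IsPGroup 2 (fit G c))
    {c d : C} (h : Δ.Opp c d) {k : I} (hb : Bad Δ G k c) :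
    ∃ (A : Type u) (_ : Group A) (f : (stabilizer G c ⊓ stabilizer G d : Subgroup G) →* A),
      Nat.card A ∣ 2 ∧ ∀ g, f g = 1 → ∀ x ∈ Δ.Pan k c, (g : G) • x = x := by
  obtain ⟨e, he, hfix⟩ := exists_e (G := G) (H c).iso h k
  have hec := ne_of_simple he
  have he' : (⟨e, Or.inr he⟩ : Δ.Pan k c) ≠ ⟨c, Or.inl rfl⟩ := fun h => hec (congrArg Subtype.val h)
  have hle : ∀ g : (stabilizer G c ⊓ stabilizer G d : Subgroup G), (g : G) ∈ (H c).panStab k := by
    intro g
    rw [(H c).mem_panStab, mem_stabilizer_iff.1 g.2.1]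
    exact Or.inl rfl
  have hmem : ∀ g : (stabilizer G c ⊓ stabilizer G d : Subgroup G),
      (H c).perm k ⟨g, hle g⟩ ∈ img (H c) k := fun g =>
    (hb.panel hR (H c) (h2 c)).2.2.1 _ ⟨_, rfl⟩ (Subtype.ext (mem_stabilizer_iff.1 g.2.1))
  let f : (stabilizer G c ⊓ stabilizer G d : Subgroup G) →*
      MulAction.stabilizer (img (H c) k) (⟨e, Or.inr he⟩ : Δ.Pan k c) :=
    { toFun := fun g => ⟨⟨(H c).perm k ⟨g, hle g⟩, hmem g⟩,
        Subtype.ext (hfix g (mem_stabilizer_iff.1 g.2.1) (mem_stabilizer_iff.1 g.2.2))⟩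
      map_one' := Subtype.ext (Subtype.ext (map_one ((H c).perm k)))
      map_mul' := fun g g' => Subtype.ext (Subtype.ext (map_mul ((H c).perm k) ⟨g, hle g⟩ ⟨g', hle g'⟩)) }
  refine ⟨_, inferInstance, f, ?_, ?_⟩
  · rcases (data (H c) k).card_stab hR he' with h | ⟨h, -⟩
    · rw [h]
      exact one_dvd 2
    · rw [h]
  · intro g hg
    have h1 := congrArg (fun z => ((z : MulAction.stabilizer (img (H c) k)
      (⟨e, Or.inr he⟩ : Δ.Pan k c)) : img (H c) k).1) hg
    have h3 : (H c).perm k ⟨g, hle g⟩ = 1 := h1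
    rw [(H c).perm_eq_one] at h3
    exact h3

/-- The homomorphism on an arbitrary panel. -/
theorem hom_reg (iso : ∀ (g : G) x y, Δ.δ (g • x) (g • y) = Δ.δ x y) {c d : C} (h : Δ.Opp c d) {k : I}
    {n : ℕ} (hn : Nat.card (Δ.Pan k c) = n + 2) :
    ∃ (A : Type u) (_ : Group A) (f : (stabilizer G c ⊓ stabilizer G d : Subgroup G) →* A),
      Nat.card A ∣ n.factorial ∧ ∀ g, f g = 1 → ∀ x ∈ Δ.Pan k c, (g : G) • x = x := by
  classical
  obtain ⟨e, he, hfix⟩ := exists_e (G := G) iso h k
  have hec := ne_of_simple he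
  let X := {x : C // x ∈ Δ.Pan k c ∧ x ≠ c ∧ x ≠ e}
  have hact : ∀ g : (stabilizer G c ⊓ stabilizer G d : Subgroup G), ∀ x : C,
      (x ∈ Δ.Pan k c ∧ x ≠ c ∧ x ≠ e) → ((g : G) • x ∈ Δ.Pan k c ∧ (g : G) • x ≠ c ∧ (g : G) • x ≠ e) := by
    rintro g x ⟨h1, h2, h3⟩
    have hc := mem_stabilizer_iff.1 g.2.1
    have he := hfix g hc (mem_stabilizer_iff.1 g.2.2)
    refine ⟨?_, ?_, ?_⟩
    · have := smul_mem_Pan iso (g := (g : G)) h1
      rwa [hc] at this
    · intro h4
      exact h2 (smul_left_cancel (g : G) (h4.trans hc.symm))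
    · intro h4
      exact h3 (smul_left_cancel (g : G) (h4.trans he.symm))
  let act : MulAction (stabilizer G c ⊓ stabilizer G d : Subgroup G) X :=
    { smul := fun g x => ⟨(g : G) • x.1, hact g x.1 x.2⟩
      one_smul := fun x => Subtype.ext (one_smul G x.1)
      mul_smul := fun g g' x => Subtype.ext (mul_smul (g : G) (g' : G) x.1) }
  refine ⟨Equiv.Perm X, inferInstance, MulAction.toPermHom _ X, ?_, ?_⟩
  · have := Fintype.ofFinite X
    rw [Nat.card_eq_fintype_card, Fintype.card_perm, ← Nat.card_eq_fintype_card]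
    have h1 : Nat.card X = n := by
      have h2 : (Δ.Pan k c) = insert c (insert e {x | x ∈ Δ.Pan k c ∧ x ≠ c ∧ x ≠ e}) := by
        ext x
        simp only [Set.mem_insert_iff, Set.mem_ofPred_eq]
        constructor
        · intro hx
          by_cases h3 : x = c
          · exact Or.inl h3
          · by_cases h4 : x = e
            · exact Or.inr (Or.inl h4)
            · exact Or.inr (Or.inr ⟨hx, h3, h4⟩)
        · rintro (rfl | rfl | hx)
          · exact Or.inl rfl
          · exact Or.inr he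
          · exact hx.1
      rw [Nat.card_coe_set_eq, h2, Set.ncard_insert_of_notMem, Set.ncard_insert_of_notMem] at hn
      · rw [← Nat.card_coe_set_eq] at hn
        change Nat.card X + 1 + 1 = n + 2 at hn
        omega
      · rintro ⟨-, -, h3⟩
        exact h3 rfl
      · rintro (h3 | ⟨-, h3, -⟩)
        · exact hec h3.symm
        · exact h3 rfl
    rw [h1]
  · intro g hg x hx
    by_cases h3 : x = c
    · rw [h3]
      exact mem_stabilizer_iff.1 g.2.1
    · by_cases h4 : x = e
      · rw [h4]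
        exact hfix g (mem_stabilizer_iff.1 g.2.1) (mem_stabilizer_iff.1 g.2.2)
      · have h5 := congrArg (fun σ : Equiv.Perm X => (σ ⟨x, hx, h3, h4⟩ : X).1) hg
        exact h5

theorem card_H (H : ∀ c : C, Split Δ c (fit G c)) (hf : ∀ g : G, (∀ x : C, g • x = x) → g = 1)
    {a b : I} (hI : ∀ i, i = a ∨ i = b) {c d : C} (h : Δ.Opp c d) {m n : ℕ}
    (ha : ∃ (A : Type u) (_ : Group A) (f : (stabilizer G c ⊓ stabilizer G d : Subgroup G) →* A),
      Nat.card A ∣ m ∧ ∀ g, f g = 1 → ∀ x ∈ Δ.Pan a c, (g : G) • x = x)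
    (hb : ∃ (A : Type u) (_ : Group A) (f : (stabilizer G c ⊓ stabilizer G d : Subgroup G) →* A),
      Nat.card A ∣ n ∧ ∀ g, f g = 1 → ∀ x ∈ Δ.Pan b c, (g : G) • x = x) :
    Nat.card (stabilizer G c ⊓ stabilizer G d : Subgroup G) ∣ m * n := by
  obtain ⟨A, _, f, hA, hf1⟩ := ha
  obtain ⟨B, _, g, hB, hg1⟩ := hb
  have hinj : Function.Injective (f.prod g) := by
    rw [injective_iff_map_eq_one]
    intro x hx
    have h1 := congrArg Prod.fst hx
    have h2 := congrArg Prod.snd hx
    apply Subtype.ext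
    refine eq_one H hf h (mem_stabilizer_iff.1 x.2.2) fun k y hy => ?_
    rcases hI k with rfl | rfl
    · exact hf1 x h1 y hy
    · exact hg1 x h2 y hy
  have h3 := Subgroup.card_dvd_of_injective _ hinj
  rw [Nat.card_prod] at h3
  exact h3.trans (Nat.mul_dvd_mul hA hB)

variable (T : OrderTable.{v}) (hS : ∀ (G : Type v) [Group G] [Finite G] [IsSimpleGroup G], IsKnownSimple' G)

/-- Evaluation of the two products. -/
theorem nums {a b : I} (hI : ∀ i, i = a ∨ i = b) {m : ℕ} (hm : M a b = m)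
    (H : ∀ c : C, Split Δ c (fit G c)) {c d : C} (h : Δ.Opp c d) (hR : RankOneR.{u})
    (h2 : ∀ c : C, IsPGroup 2 (fit G c)) {s t : ℕ}
    (hs : Nat.card (Δ.Pan a c) - 1 = s) (ht : Nat.card (Δ.Pan b c) - 1 = t) {cC o : ℕ}
    (h1 : ∑ j ∈ Finset.range m, ∏ k ∈ Finset.range j, (if k % 2 = 0 then s else t) +
      ∑ j ∈ Finset.range m, ∏ k ∈ Finset.range (m - j), (if k % 2 = 0 then t else s) = cC)
    (h3 : ∏ k ∈ Finset.range m, (if k % 2 = 0 then s else t) = o) :
    Nat.card C = cC ∧ Nat.card G = cC * (o * Nat.card (stabilizer G c ⊓ stabilizer G d : Subgroup G)) := by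
  set q : I → ℕ := fun k => Nat.card (Δ.Pan k c) - 1 with hq
  have hqp : ∀ i, Δ.Param i (q i) := fun i => N168.param (H c) i
  have hq0 : ∀ i, 0 < q i := by
    intro i
    have := two_lt_card (H c) i
    simp only [hq]
    omega
  have h4 : ∀ k : ℕ, q (ty a b k) = if k % 2 = 0 then s else t := by
    intro k
    rw [ty_nat]
    split_ifs
    · exact hs
    · exact ht
  have h5 : ∀ k : ℕ, q (ty b a k) = if k % 2 = 0 then t else s := by
    intro k
    rw [ty_nat]
    split_ifs
    · exact ht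
    · exact hs
  have h6 := card_chambers (Δ := Δ) hI hm hqp hq0 c
  have h7 := card_group (fam hR H h2 c) hI hm hqp hq0 h
  simp only [h4, h5] at h6 h7
  rw [h1] at h6
  rw [h6, h3] at h7
  exact ⟨h6, h7⟩

include T hS in
theorem aux (hR : RankOneR.{u}) {a b : I} (hI : ∀ i, i = a ∨ i = b)
    (hm : M a b = 3 ∨ M a b = 4 ∨ M a b = 6 ∨ M a b = 8)
    (hf : ∀ g : G, (∀ x : C, g • x = x) → g = 1)
    (H : ∀ c : C, Split Δ c (fit G c)) {c d : C} (h : Δ.Opp c d)
    (hsq : M a b = 8 → IsSquare (2 * (Nat.card (Δ.Pan a c) - 1) * (Nat.card (Δ.Pan b c) - 1)))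
    (h2 : ∀ c : C, IsPGroup 2 (fit G c)) (hpow : ∃ i, Nat.card (Δ.Pan b c) - 1 = 2 ^ i)
    {u : G} (hu : u ∈ fit G c) (hud : u • d = d) (hu1 : u ≠ 1) (hb : Bad Δ G a c) : False := by
  have hnt : Nontrivial G := ⟨⟨u, 1, hu1⟩⟩
  have hs9 := (hb.panel hR (H c) (h2 c)).1
  have hs : Nat.card (Δ.Pan a c) - 1 = 8 := by omega
  have hm3 : 3 ≤ M a b := by omega
  have hdvd : ∀ E : Subgroup G, E.Normal → E ≠ ⊥ → Nat.card C ∣ Nat.card E := fun E hE hE1 =>
    dvd_normal (fam hR H h2 c) hf hI hm3 E hE1 c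
  have hA := hom_bad hR H h2 h hb
  by_cases hb' : Bad Δ G b c
  · have ht9 := (hb'.panel hR (H c) (h2 c)).1
    have ht : Nat.card (Δ.Pan b c) - 1 = 8 := by omega
    have hB := hom_bad hR H h2 h hb'
    have hH := card_H H hf hI h hA hB
    rcases hm with hm | hm | hm | hm
    · obtain ⟨hC, hG⟩ := nums (cC := 657) (o := 512) hI hm H h hR h2 hs ht (by decide) (by decide)
      rw [hC] at hdvd
      refine OrdCases.false_of_ex (OrdCases.ex38 T hS) (r := 73) (by norm_num) (by norm_num) (by norm_num)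
        (by norm_num) ?_ hdvd
      rw [hG]
      exact (Nat.mul_dvd_mul (dvd_refl 657) (Nat.mul_dvd_mul (dvd_refl 512) hH)).trans (by norm_num)
    · obtain ⟨hC, hG⟩ := nums (cC := 5265) (o := 4096) hI hm H h hR h2 hs ht (by decide) (by decide)
      rw [hC] at hdvd
      refine OrdCases.false_of_ex (OrdCases.ex48 T hS) (r := 13) (by norm_num) (by norm_num) (by norm_num)
        (by norm_num) ?_ hdvd
      rw [hG]
      exact (Nat.mul_dvd_mul (dvd_refl 5265) (Nat.mul_dvd_mul (dvd_refl 4096) hH)).trans (by norm_num)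
    · obtain ⟨hC, hG⟩ := nums (cC := 337041) (o := 262144) hI hm H h hR h2 hs ht (by decide) (by decide)
      rw [hC] at hdvd
      refine OrdCases.false_of_ex (OrdCases.ex68 T hS) (r := 73) (by norm_num) (by norm_num) (by norm_num)
        (by norm_num) ?_ hdvd
      rw [hG]
      exact (Nat.mul_dvd_mul (dvd_refl 337041) (Nat.mul_dvd_mul (dvd_refl 262144) hH)).trans (by norm_num)
    · have h3 := hsq hm
      rw [hs, ht] at h3
      obtain ⟨r, hr⟩ := h3
      have h4 : r < 12 := by nlinarith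
      interval_cases r <;> omega
  · -- regular panels of type `b`
    have hreg : ∀ c' e, Δ.δ c' e = cs.simple b → ∀ v ∈ (fam hR H h2 c).U c', v • e = e →
        ∀ x ∈ Δ.Pan b c', v • x = x := by
      intro c' e he v hv hve x hx
      by_contra hne
      have hbad : Bad Δ G b c' := ⟨e, Or.inr he, ne_of_simple he, v, hv, hve, x, hx, hne⟩
      exact hb' (bad_all (H c') hbad c)
    have D : Dl (fam hR H h2 c) a b u c d := ⟨hf, hI, hreg, hu, hud, h, hu1⟩
    obtain ⟨n, hn⟩ := hpow
    obtain ⟨t, ht⟩ : ∃ t, Nat.card (Δ.Pan b c) - 1 = t := ⟨_, rfl⟩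
    have ht2 : 2 ≤ t := by
      have := two_lt_card (H c) b
      omega
    have hmb : M b a = M a b := M.symmetric b a
    obtain ⟨e, hce, hue⟩ := D.move_i (mem_stabilizer_iff.1 (fit_le G c hu))
    -- the numbers
    set q : I → ℕ := fun k => Nat.card (Δ.Pan k c) - 1 with hq
    have hqp : ∀ i, Δ.Param i (q i) := fun i => N168.param (H c) i
    have hq0 : ∀ i, 0 < q i := by
      intro i
      have := two_lt_card (H c) i
      simp only [hq]
      omega
    have hstar : ∀ x, t ≤ Nat.card {y // Δ.δ x y = cs.simple b} := by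
      intro x
      rw [Cfsg.Agent.Tits.Opp.card_star Δ (hqp b) (hq0 b) x]
      exact ht.ge
    have hab : a ≠ b := by
      rintro rfl
      rw [M.diagonal] at hm3
      omega
    classical
    let r : I → ℕ := fun k => if k = b then t else 2
    have hrb : r b = t := if_pos rfl
    have hra : r a = 2 := if_neg hab
    have hI' : ∀ k, k = b ∨ k = a := fun k => (hI k).symm
    -- the inequality
    have hineq : ∀ m l : ℕ, M a b = m → Even m → l + 1 ≤ m → m ≤ 2 * l →
        ∏ k ∈ Finset.range (m - 1), (if k % 2 = 0 then t else 2) ≤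
          ∏ k ∈ Finset.range l, (if k % 2 = 0 then t else 8) := by
      intro m l hmm hme hl1 hl2
      have h3 := D.card_fix hstar (hmb.trans hmm) hra hrb (m - 1) (by omega)
      have h4 := D.card_le (hmb.trans hmm) hme hl1 hl2 hce hue
      have h5 := card_w (Δ := Δ) hI' (hmb.trans hmm) hqp hq0 e l (by omega)
      have e1 : ((m - 1 : ℕ) : ℤ) = (m : ℤ) - 1 := by
        rw [Nat.cast_sub (by omega)]
        rfl
      rw [e1] at h3
      rw [h5] at h4
      have h6 := h3.trans h4
      have h7 : ∀ k : ℕ, r (ty b a k) = if k % 2 = 0 then t else 2 := by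
        intro k
        rw [ty_nat]
        split_ifs
        · exact hrb
        · exact hra
      have h8 : ∀ k : ℕ, q (ty b a k) = if k % 2 = 0 then t else 8 := by
        intro k
        rw [ty_nat]
        split_ifs
        · exact ht
        · exact hs
      simp only [h7, h8] at h6
      exact h6
    have hodd := D.not_odd (m := M a b) rfl
    rcases hm with hm | hm | hm | hm
    · rw [hm] at hodd
      exact hodd ⟨1, rfl⟩
    · have h3 := hineq 4 2 hm ⟨2, rfl⟩ (by norm_num) (by norm_num)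
      simp [Finset.prod_range_succ] at h3
      have h4 : t ≤ 4 := by nlinarith
      have h5 : t = 2 ∨ t = 4 := by
        rw [ht] at hn
        have : n ≤ 2 := by
          by_contra hcon
          have : 2 ^ 3 ≤ 2 ^ n := Nat.pow_le_pow_right (by norm_num) (by omega)
          omega
        interval_cases n <;> omega
      rcases h5 with h5 | h5
      · rw [h5] at ht
        have hB := hom_reg (G := G) (H c).iso h (k := b) (n := 1) (by omega)
        have hH := card_H H hf hI h hA hB
        obtain ⟨hC, hG⟩ := nums (cC := 459) (o := 256) hI hm H h hR h2 hs ht (by decide) (by decide)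
        rw [hC] at hdvd
        refine OrdCases.false_of_ex (OrdCases.ex42 T hS) (r := 17) (by norm_num) (by norm_num) (by norm_num)
          (by norm_num) ?_ hdvd
        rw [hG]
        exact (Nat.mul_dvd_mul (dvd_refl 459) (Nat.mul_dvd_mul (dvd_refl 256) hH)).trans
          (by norm_num [Nat.factorial])
      · rw [h5] at ht
        have hB := hom_reg (G := G) (H c).iso h (k := b) (n := 3) (by omega)
        have hH := card_H H hf hI h hA hB
        obtain ⟨hC, hG⟩ := nums (cC := 1485) (o := 1024) hI hm H h hR h2 hs ht (by decide) (by decide)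
        rw [hC] at hdvd
        refine OrdCases.false_44 T hS ?_ ?_ hdvd
        · rw [hG]
          exact (Nat.mul_dvd_mul (dvd_refl 1485) (Nat.mul_dvd_mul (dvd_refl 1024) hH)).trans
            (by norm_num [Nat.factorial])
        · rw [hG]
          exact Dvd.dvd.mul_left (Dvd.dvd.mul_right (by norm_num) _) _
    · have h3 := hineq 6 3 hm ⟨3, rfl⟩ (by norm_num) (by norm_num)
      simp [Finset.prod_range_succ] at h3
      have h4 : t ≤ 2 := by
        have h5 : 0 < t * t := by positivity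
        have h6 : t * 2 * t * 2 * t = (t * t) * (4 * t) := by ring
        have h7 : t * 8 * t = (t * t) * 8 := by ring
        rw [h6, h7] at h3
        have h8 := Nat.le_of_mul_le_mul_left h3 h5
        omega
      have h5 : t = 2 := by omega
      rw [h5] at ht
      have hB := hom_reg (G := G) (H c).iso h (k := b) (n := 1) (by omega)
      have hH := card_H H hf hI h hA hB
      obtain ⟨hC, hG⟩ := nums (cC := 7371) (o := 4096) hI hm H h hR h2 hs ht (by decide) (by decide)
      rw [hC] at hdvd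
      refine OrdCases.false_of_ex (OrdCases.ex62 T hS) (r := 13) (by norm_num) (by norm_num) (by norm_num)
        (by norm_num) ?_ hdvd
      rw [hG]
      exact (Nat.mul_dvd_mul (dvd_refl 7371) (Nat.mul_dvd_mul (dvd_refl 4096) hH)).trans
        (by norm_num [Nat.factorial])
    · have h3 := hineq 8 4 hm ⟨4, rfl⟩ (by norm_num) (by norm_num)
      simp [Finset.prod_range_succ] at h3
      have h4 : t ≤ 2 := by
        have h5 : 0 < t * t := by positivity
        have h6 : t * 2 * t * 2 * t * 2 * t = (t * t) * (8 * (t * t)) := by ring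
        have h7 : t * 8 * t * 8 = (t * t) * 64 := by ring
        rw [h6, h7] at h3
        have h8 := Nat.le_of_mul_le_mul_left h3 h5
        nlinarith
      have h5 : t = 2 := by omega
      rw [h5] at ht
      have h6 := hsq hm
      rw [hs, ht] at h6
      obtain ⟨r, hr⟩ := h6
      have h7 : r < 6 := by nlinarith
      interval_cases r <;> omega

include T hS in
/-- **Rank two.** -/
theorem main (hR : RankOneR.{u}) {a b : I} (hI : ∀ i, i = a ∨ i = b)
    (hm : M a b = 3 ∨ M a b = 4 ∨ M a b = 6 ∨ M a b = 8)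
    (hf : ∀ g : G, (∀ x : C, g • x = x) → g = 1)
    (H : ∀ c : C, Split Δ c (fit G c)) {c d : C} (h : Δ.Opp c d)
    (hsq : M a b = 8 → IsSquare (2 * (Nat.card (Δ.Pan a c) - 1) * (Nat.card (Δ.Pan b c) - 1)))
    {u : G} (hu : u ∈ fit G c) (hud : u • d = d) : u = 1 := by
  by_contra hu1
  have huc : u • c = c := mem_stabilizer_iff.1 (fit_le G c hu)
  obtain ⟨p, hp, hpU, hpar⟩ := N168.all hR hI (by omega) hf H c
  obtain ⟨k, x, hx, hux⟩ : ∃ k, ∃ x ∈ Δ.Pan k c, u • x ≠ x := by
    by_contra hcon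
    push Not at hcon
    exact hu1 (eq_one H hf h hud hcon)
  obtain ⟨e, he, hfix⟩ := exists_e (G := G) (H c).iso h k
  have hue := hfix u huc hud
  have hp2 := two_of_ne hR hp (H c) (hpU c) (Or.inr he) (ne_of_simple he) hu hue hx hux
  subst hp2
  have hbad : Bad Δ G k c := ⟨e, Or.inr he, ne_of_simple he, u, hu, hue, x, hx, hux⟩
  rcases hI k with rfl | rfl
  · obtain ⟨i, hi⟩ := hpar b
    exact aux T hS hR hI hm hf H h hsq hpU ⟨i, hi c⟩ hu hud hu1 hbad
  · obtain ⟨i, hi⟩ := hpar a
    have hmm : M k a = M a k := M.symmetric k a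
    refine aux T hS hR (fun i => (hI i).symm) (by rw [hmm]; exact hm) hf H h ?_ hpU ⟨i, hi c⟩ hu hud hu1 hbad
    intro h8
    rw [hmm] at h8
    have := hsq h8
    rwa [mul_assoc, mul_comm (Nat.card _ - 1), ← mul_assoc] at this

end

end Cfsg.Agent.H361.RankTwo
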