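import Cfsg.Agent.H72.AdjSp
import Cfsg.Agent.S0245
import Cfsg.Agent.S0246
import Cfsg.Agent.S0292

/-!
# `PSp_{2m}(u)`, `Ω_{2m+1}(u)`, `u` odd : two odd primes not adjacent to 2 are adjacent (helper361)
-/

set_option autoImplicit false

namespace Cfsg.Agent.H361.T16

open Cfsg.Agent.H377 Cfsg.Agent.H72.AdjSp

section sp

variable {F : Type*} [Field F] [Finite F] {m : ℕ}

/-- **`PSp_{2m}(u)`, `u` odd** -/
theorem psp_two (h2 : (2 : F) ≠ 0) (hm : 2 ≤ m) {a b : ℕ} (ha : a.Prime) (hb : b.Prime) (ha2 : a ≠ 2) (hb2 : b ≠ 2)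
    (hab : a ≠ b) (hda : a ∣ Nat.card (Cfsg.PSp m F)) (hdb : b ∣ Nat.card (Cfsg.PSp m F))
    (hna : ¬ ∃ g : Cfsg.PSp m F, orderOf g = 2 * a) (hnb : ¬ ∃ g : Cfsg.PSp m F, orderOf g = 2 * b) :
    ∃ g : Cfsg.PSp m F, orderOf g = a * b := by
  have key : ∀ u : ℕ, u.Prime → (¬ ∃ g : Cfsg.PSp m F, orderOf g = 2 * u) →
      ¬ Cfsg.Agent.H94.PG.Adj (Cfsg.PSp m F) u 2 := by
    intro u _ hn h
    obtain ⟨g, hg⟩ := orderOf_of_adj h
    exact hn ⟨g, by rw [hg, mul_comm]⟩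
  have h1 := psp_info hm ha ha2 hda (key a ha hna)
  have h3 := psp_info hm hb hb2 hdb (key b hb hnb)
  have hodd : Odd (Nat.card F) := odd_card_of_two h2
  have hq : 1 ≤ Nat.card F ^ m := Nat.one_le_pow _ _ Nat.card_pos
  have h4 : 4 ∣ Nat.card F ^ m - 1 ∨ 4 ∣ Nat.card F ^ m + 1 := by
    have : Odd (Nat.card F ^ m) := hodd.pow
    obtain ⟨c, hc⟩ := this
    rcases Nat.even_or_odd c with ⟨d, hd⟩ | ⟨d, hd⟩
    · left; exact ⟨d, by omega⟩
    · right; exact ⟨d + 1, by omega⟩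
  have mixed : ∀ a b : ℕ, a.Prime → b.Prime → a ≠ 2 → b ≠ 2 → (¬ ∃ g : Cfsg.PSp m F, orderOf g = 2 * a) →
      (¬ ∃ g : Cfsg.PSp m F, orderOf g = 2 * b) → a ∣ Nat.card F ^ m - 1 → b ∣ Nat.card F ^ m + 1 → False := by
    intro a b ha hb ha2 hb2 hna hnb h1 h3
    rcases h4 with h4 | h4
    · exact key a ha hna (psp_adj_minus_two (by omega) ha ha2 h1 h4)
    · exact key b hb hnb (psp_adj_plus_two (by omega) hb hb2 h3 h4)
  rcases h1.1 with h5 | h5 <;> rcases h3.1 with h6 | h6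
  · exact orderOf_of_adj (psp_adj_minus (by omega) ha hb ha2 hb2 hab h5 h6)
  · exact (mixed a b ha hb ha2 hb2 hna hnb h5 h6).elim
  · exact (mixed b a hb ha hb2 ha2 hnb hna h6 h5).elim
  · exact orderOf_of_adj (psp_adj_plus (by omega) ha hb ha2 hb2 hab h5 h6)

/-- **`Ω_{2m+1}(u)`, `u` odd** -/
theorem odd_two (h2 : (2 : F) ≠ 0) (hm : 3 ≤ m) {a b : ℕ} (ha : a.Prime) (hb : b.Prime) (ha2 : a ≠ 2) (hb2 : b ≠ 2)
    (hab : a ≠ b) (hda : a ∣ Nat.card (Cfsg.POmega F (Cfsg.quadFormOdd m F)))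
    (hdb : b ∣ Nat.card (Cfsg.POmega F (Cfsg.quadFormOdd m F)))
    (hna : ¬ ∃ g : Cfsg.POmega F (Cfsg.quadFormOdd m F), orderOf g = 2 * a)
    (hnb : ¬ ∃ g : Cfsg.POmega F (Cfsg.quadFormOdd m F), orderOf g = 2 * b) :
    ∃ g : Cfsg.POmega F (Cfsg.quadFormOdd m F), orderOf g = a * b := by
  let _ := Fintype.ofFinite F
  have hodd : Odd (Fintype.card F) := by rw [← Nat.card_eq_fintype_card]; exact odd_card_of_two h2
  have hcard : Nat.card (Cfsg.POmega F (Cfsg.quadFormOdd m F)) = Nat.card (Cfsg.PSp m F) := by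
    have h3 := Cfsg.Agent.S0292.result (F := F) rfl hodd m hm
    have h4 := Cfsg.Agent.S0245.result (F := F) rfl m
    have h5 := Cfsg.Agent.S0246.result (F := F) rfl m (by omega)
    have h6 := Subgroup.card_eq_card_quotient_mul_card_subgroup (Subgroup.center (Matrix.symplecticGroup (Fin m) F))
    have h7 : Nat.gcd 2 (Fintype.card F - 1) = 2 := by
      obtain ⟨c, hc⟩ := hodd
      rw [hc]
      exact Nat.gcd_eq_left ⟨c, by omega⟩
    rw [h5, h7, h4, ← h3] at h6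
    have h8 : Nat.card (Cfsg.PSp m F) = Nat.card (Matrix.symplecticGroup (Fin m) F ⧸
      Subgroup.center (Matrix.symplecticGroup (Fin m) F)) := rfl
    omega
  have tr : ∀ r s : ℕ, r.Prime → s.Prime → r ≠ s → ((∃ g : Cfsg.POmega F (Cfsg.quadFormOdd m F), orderOf g = r * s) ↔
      ∃ g : Cfsg.PSp m F, orderOf g = r * s) := fun r s hr hs hrs =>
    Cfsg.Agent.S2474.result (F := F) hodd m hm r s hr hs hrs
  rw [tr a b ha hb hab]
  rw [tr 2 a Nat.prime_two ha (Ne.symm ha2)] at hna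
  rw [tr 2 b Nat.prime_two hb (Ne.symm hb2)] at hnb
  rw [hcard] at hda hdb
  exact psp_two h2 (by omega) ha hb ha2 hb2 hab hda hdb hna hnb

end sp

end Cfsg.Agent.H361.T16
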